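import Mathlib

/-! Field automorphisms that are transitive on the nonzero elements of a quotient `F / W`. -/

set_option autoImplicit false

namespace Cfsg.Agent.BdS

theorem lin_arith {m j r : ℕ} (hj : 1 ≤ j) (hjm : j < m) (h1 : j * r ≤ m) (h2 : 2 ^ m ≤ (r + 1) * 2 ^ j) :
    m = j + 1 ∨ (m = 3 ∧ j = 1) := by
  obtain ⟨d, rfl⟩ : ∃ d, m = j + d := ⟨m - j, by omega⟩
  rw [pow_add, mul_comm] at h2
  have h3 : 2 ^ d ≤ r + 1 := Nat.le_of_mul_le_mul_right h2 (by positivity)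
  have h4 : r ≤ d + 1 := by
    rcases Nat.eq_zero_or_pos r with rfl | hr
    · omega
    · obtain ⟨s, rfl⟩ : ∃ s, r = s + 1 := ⟨r - 1, by omega⟩
      nlinarith
  have h5 : d ≤ 2 := by
    by_contra h
    obtain ⟨e, rfl⟩ : ∃ e, d = e + 3 := ⟨d - 3, by omega⟩
    have := Nat.lt_two_pow_self (n := e)
    rw [pow_add] at h3
    omega
  obtain rfl | rfl : d = 1 ∨ d = 2 := by omega
  · exact Or.inl rfl
  · obtain rfl : r = 3 := by omega
    omega

/-- The arithmetic behind the axiom `Loc.lin`. -/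
theorem lin_field {F : Type*} [Field F] [Finite F] {m : ℕ} (hF : Nat.card F = 2 ^ m) (W : AddSubgroup F)
    (h1 : (1 : F) ∈ W) (hW : W ≠ ⊤)
    (h : ∀ z, z ∉ W → ∀ z', z' ∉ W → ∃ σ : F ≃+* F, (∀ w ∈ W, σ w = w) ∧ σ z + z' ∈ W) :
    2 ^ m = 2 * Nat.card W ∨ (2 ^ m = 8 ∧ Nat.card W = 2) := by
  classical
  let Γ : Subgroup (F ≃+* F) :=
    { carrier := {σ | ∀ w ∈ W, σ w = w}
      mul_mem' := fun {a b} ha hb w hw => by
        show a (b w) = w
        rw [hb w hw, ha w hw]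
      one_mem' := fun _ _ => rfl
      inv_mem' := fun {a} ha w hw => by
        show a.symm w = w
        rw [RingEquiv.symm_apply_eq, ha w hw] }
  have : Finite (F ≃+* F) := Finite.of_injective (fun σ : F ≃+* F => (σ : F → F)) DFunLike.coe_injective
  have := Fintype.ofFinite Γ
  have e1 := FixedPoints.finrank_eq_card Γ F
  have e2 := Module.natCard_eq_pow_finrank (K := FixedPoints.subfield Γ F) (V := F)
  have e3 : Nat.card W ≤ Nat.card (FixedPoints.subfield Γ F) :=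
    Nat.card_le_card_of_injective (fun w => ⟨w.1, fun σ => σ.2 w.1 w.2⟩)
      fun a b hab => Subtype.ext (Subtype.mk.inj hab)
  obtain ⟨j, hjm, hj⟩ := (Nat.dvd_prime_pow Nat.prime_two).1 (hF ▸ W.card_addSubgroup_dvd_card)
  have j1 : 1 ≤ j := by
    by_contra h0
    have h2 : Nat.card W = 1 := by rw [hj, show j = 0 by omega, pow_zero]
    rw [AddSubgroup.card_eq_one] at h2
    rw [h2] at h1
    exact one_ne_zero (AddSubgroup.mem_bot.1 h1)
  have j2 : j < m := lt_of_le_of_ne hjm fun e => hW (AddSubgroup.eq_top_of_card_eq W (by rw [hj, e, hF]))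
  have j3 : j * Fintype.card Γ ≤ m := by
    rw [← Nat.pow_le_pow_iff_right (by norm_num : 1 < 2), pow_mul, ← hj, ← hF, e2, e1]
    exact Nat.pow_le_pow_left e3 _
  obtain ⟨z, hz⟩ : ∃ z, z ∉ W := by
    by_contra hc; push Not at hc; exact hW (eq_top_iff.2 fun x _ => hc x)
  have j4 : 2 ^ m ≤ (Fintype.card Γ + 1) * 2 ^ j := by
    have := Nat.card_le_card_of_surjective
      (fun p : Option Γ × W => (p.1.elim 0 fun σ => -σ.1 z) + p.2.1) (fun y => by
        by_cases hy : y ∈ W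
        · exact ⟨(none, ⟨y, hy⟩), by simp⟩
        · obtain ⟨σ, h2, h3⟩ := h z hz y hy
          exact ⟨(some ⟨σ, h2⟩, ⟨_, h3⟩), by simp⟩)
    rwa [hF, Nat.card_prod, hj, Nat.card_eq_fintype_card, Fintype.card_option] at this
  rcases lin_arith j1 j2 j3 j4 with rfl | ⟨rfl, rfl⟩
  · left; rw [hj, pow_succ']
  · right; exact ⟨rfl, hj⟩

end Cfsg.Agent.BdS
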