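import Cfsg.Agent.Lib.BdS.Lin
import Cfsg.Agent.Lib.Bd.Loc
import Cfsg.Agent.Lib.Suz.Aut
import Cfsg.Agent.Lib.Suz.Iso
import Cfsg.Agent.Lib.Suz.Sub
import Cfsg.Agent.Lib.Suz.Borel
import Cfsg.Agent.Lib.Suz.Wp

/-! The Suzuki groups satisfy the local axioms `Bd.Loc`. -/

set_option autoImplicit false
set_option linter.unusedSectionVars false

namespace Cfsg.Agent.BdS

open Cfsg.Agent.Suz Cfsg.Agent.Bd Cfsg.Agent.AIC

variable {F : Type*} [Field F] {k : ℕ} [hS : SuzF F k]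

theorem z1_ne : (u 0 1 : G F k) ≠ 1 := fun h => one_ne_zero (u_eq_one.1 h).2

theorem commute_z1 {x : G F k} : Commute x (u 0 1) ↔ x ∈ U F :=
  ⟨fun h => mem_U_of_commute (u_mem_U 0 1) z1_ne h, by rintro ⟨a, b, rfl⟩; exact u_comm_z a b 1⟩

theorem not_mem_B {x : G F k} (h2 : x * x = 1) (h : ¬ Commute (u 0 1) x) : x ∉ B F := fun hB =>
  h (commute_z1.2 (mem_U_of_pow hB (k := 1) (by rw [pow_one, pow_two, h2]))).symm

theorem exists_pt {x : G F k} (h2 : x * x = 1) (h : x ∉ B F) : ∃ a b : F, x • (pt a b : Pt F k) = pt a b := by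
  obtain ⟨α, hα⟩ := exists_fix_of_tr (tr_eq_zero_of_sq h2)
  rcases pt_cases α with rfl | ⟨a, b, rfl⟩
  · exact absurd hα h
  · exact ⟨a, b, hα⟩

theorem comm_of_fix {x y : G F k} (hx : x * x = 1) (hy : y * y = 1) {α : Pt F k} (h1 : x • α = α)
    (h2 : y • α = α) : Commute x y := by
  obtain ⟨g, hg⟩ := exists_smul_eq_inf α
  have key : ∀ z : G F k, z * z = 1 → z • α = α → g * z * g⁻¹ ∈ Z F := fun z hz h => by
    have e : g * z * g⁻¹ * (g * z * g⁻¹) = 1 := by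
      calc _ = g * (z * z) * g⁻¹ := by group
        _ = 1 := by rw [hz]; group
    refine mem_Z_of_sq (mem_U_of_pow (k := 1) ?_ (by rw [pow_one, pow_two, e])) e
    rw [mem_B, ← hg, mul_smul, mul_smul, inv_smul_smul, h]
  obtain ⟨b, hb⟩ := key x hx h1
  obtain ⟨c, hc⟩ := key y hy h2
  rw [← commute_conj_iff g, hb, hc]
  exact u_comm_z 0 b c

include hS in
theorem aut_eq_one {σ : F ≃+* F} (h : ∀ c, σ (σ c) = c) : σ = 1 := by
  have h1 : σ * σ = 1 := RingEquiv.ext h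
  have := Nat.finite_of_card_ne_zero (α := F ≃+* F) (by rw [card_ringEquiv]; omega)
  refine eq_one_of_odd (Odd.of_dvd_nat ?_ (orderOf_dvd_natCard σ)) h1
  rw [card_ringEquiv]; exact odd_two_mul_add_one k

include hS in
theorem key_sq {μ : Fˣ} {σ : F ≃+* F} (h : ∀ c : F, μ * σ (μ * σ c) = c) : μ = 1 ∧ σ = 1 := by
  have h1 := h 1
  rw [map_one, mul_one] at h1
  have h2 : σ = 1 := aut_eq_one (k := k) fun c => by
    have := h c
    rwa [map_mul, ← mul_assoc, h1, one_mul] at this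
  subst h2
  exact ⟨Units.ext (sq_eq_one' (m := k) (by rw [pow_two]; exact h1)), rfl⟩

variable {X : Type*} [Group X]

/-- an isomorphism onto `M` that maps the standard involution to `t` -/
structure Emb (M : Subgroup X) (t : X) (f : G F k →* X) : Prop where
  inj : Function.Injective f
  rng : ∀ g, g ∈ M ↔ ∃ x, f x = g
  ht : f (u 0 1) = t

theorem exists_emb {M : Subgroup X} (e : G F k ≃* M) {t : X} (ht : t ∈ I M) : ∃ f : G F k →* X, Emb M t f := by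
  obtain ⟨x, hx⟩ := e.surjective ⟨t, ht.1⟩
  have hx' : (e x : X) = t := by rw [hx]
  obtain ⟨y, hy⟩ := isConj_iff.1 (isConj_invol (sq_of_mem_Z (u_mem_Z (1 : F))) z1_ne (j := x)
    (e.injective (Subtype.ext (by simpa [hx'] using ht.2.2)))
    (fun h => ht.2.1 (by rw [← hx', h]; simp)))
  refine ⟨M.subtype.comp ((MulAut.conj y).trans e).toMonoidHom,
    M.subtype_injective.comp ((MulAut.conj y).trans e).injective, fun g => ⟨fun hg => ?_, ?_⟩, ?_⟩
  · obtain ⟨z, hz⟩ := ((MulAut.conj y).trans e).surjective ⟨g, hg⟩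
    exact ⟨z, congrArg Subtype.val hz⟩
  · rintro ⟨z, rfl⟩; exact Subtype.prop _
  · rw [← hx', ← hy]; rfl

namespace Emb

variable {M : Subgroup X} {t : X} {f : G F k →* X} (E : Emb M t f)
include E

theorem mem (x : G F k) : f x ∈ M := (E.rng _).2 ⟨x, rfl⟩

theorem cm {x y : G F k} : Commute (f x) (f y) ↔ Commute x y :=
  ⟨fun h => E.inj (by simpa using h.eq), fun h => h.map _⟩

theorem eq_one {x : G F k} : f x = 1 ↔ x = 1 := map_eq_one_iff _ E.inj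

theorem sq {x : G F k} (h : f x * f x = 1) : x * x = 1 := E.eq_one.1 (by rwa [map_mul])

theorem cmt {x : G F k} : Commute (f x) t ↔ x ∈ U F := by rw [← E.ht, E.cm, commute_z1]

theorem memZ' {z : X} : (z ∈ M ∧ z * z = 1 ∧ Commute z t) ↔ z ∈ (Z F).map f := by
  constructor
  · rintro ⟨h1, h2, h3⟩
    obtain ⟨x, rfl⟩ := (E.rng _).1 h1
    exact ⟨x, mem_Z_of_sq (E.cmt.1 h3) (E.sq h2), rfl⟩
  · rintro ⟨x, hx, rfl⟩
    exact ⟨E.mem x, by rw [← map_mul, sq_of_mem_Z hx, map_one], E.cmt.2 (Z_le_U hx)⟩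

theorem memS' {s : X} : (s ∈ M ∧ s ^ 4 = 1 ∧ Commute s t) ↔ s ∈ (U F).map f := by
  constructor
  · rintro ⟨h1, -, h3⟩
    obtain ⟨x, rfl⟩ := (E.rng _).1 h1
    exact ⟨x, E.cmt.1 h3, rfl⟩
  · rintro ⟨_, ⟨a, b, rfl⟩, rfl⟩
    exact ⟨E.mem _, by rw [← map_pow, u_pow_four, map_one], E.cmt.2 (u_mem_U a b)⟩

theorem ZZ_eq : ZZ M t = (Z F).map f := by
  rw [ZZ, ← Subgroup.closure_eq ((Z F).map f)]; congr 1; ext z; exact E.memZ'

theorem SS_eq : SS M t = (U F).map f := by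
  rw [SS, ← Subgroup.closure_eq ((U F).map f)]; congr 1; ext z; exact E.memS'

theorem exZ {z : X} (h : z ∈ ZZ M t) : ∃ b, f (u 0 b) = z := by
  rw [E.ZZ_eq] at h
  obtain ⟨_, ⟨b, rfl⟩, rfl⟩ := h
  exact ⟨b, rfl⟩

theorem exS {z : X} (h : z ∈ SS M t) : ∃ a b, f (u a b) = z := by
  rw [E.SS_eq] at h
  obtain ⟨_, ⟨a, b, rfl⟩, rfl⟩ := h
  exact ⟨a, b, rfl⟩

theorem mZ {x : G F k} : f x ∈ ZZ M t ↔ x ∈ Z F := by rw [E.ZZ_eq, Subgroup.mem_map_iff_mem E.inj]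
theorem mS {x : G F k} : f x ∈ SS M t ↔ x ∈ U F := by rw [E.SS_eq, Subgroup.mem_map_iff_mem E.inj]

theorem aut {g : X} (hg : Nm M g) (h : Commute (g * t * g⁻¹) t) : ∃ (μ : Fˣ) (σ : F ≃+* F),
    (∀ c d, ∃ e, g * f (u c d) * g⁻¹ = f (u (μ * σ c) e)) ∧
    (∀ d, g * f (u 0 d) * g⁻¹ = f (u 0 (μ * θ (μ : F) * σ d))) ∧
    (μ = 1 → σ = 1 → ∃ a b, As M g (f (u a b))) := by
  choose p hp using fun x => (E.rng _).1 (hg _ (E.mem x))
  let ψ0 : G F k →* G F k := MonoidHom.mk' p fun x y => E.inj (by rw [map_mul, hp, hp, hp, map_mul]; group)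
  have hi : Function.Injective ψ0 := (injective_iff_map_eq_one _).2 fun x hx => by
    have := hp x
    rw [show p x = 1 from hx, map_one] at this
    exact E.eq_one.1 (by simpa using conj_eq_one_iff.1 this.symm)
  obtain ⟨x, σ, hψ⟩ := exists_aut_eq (MulEquiv.ofBijective ψ0 (Finite.injective_iff_bijective.1 hi))
  have h1 : ∀ y, g * f y * g⁻¹ = f (x * fieldAut σ y * x⁻¹) := fun y => by
    rw [← hp]; exact congrArg f (DFunLike.congr_fun hψ y)
  have h2 : ∀ c d, fieldAut σ (u c d : G F k) = u (σ c) (σ d) := fun c d => by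
    rw [fieldAut_apply, mapG_u]; rfl
  have hx : x ∈ B F := mem_B_of_conj_mem_U (u_mem_U 0 1) z1_ne (E.cmt.1 (by
    have := h1 (u 0 1)
    rw [h2, map_zero, map_one, E.ht] at this
    rwa [← this]))
  obtain ⟨a, b, μ, rfl⟩ := mem_B_iff.1 hx
  refine ⟨μ, σ, fun c d => ⟨_, by rw [h1, h2, B_conj_u]⟩, fun d => by rw [h1, h2, map_zero, B_conj_z], ?_⟩
  rintro rfl rfl
  refine ⟨a, b, fun m hm => ?_⟩
  obtain ⟨y, rfl⟩ := (E.rng _).1 hm
  have : fieldAut (1 : F ≃+* F) y = y := DFunLike.congr_fun (hom_ext (f := mapG _ (map_θ_self _))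
    (g := MonoidHom.id _) (fun a b => by rw [mapG_u]; rfl) (fun μ => by rw [mapG_hh]; rfl) (by rw [mapG_w]; rfl)) y
  rw [h1, this, hh_one, mul_one, map_mul, map_mul, map_inv]

theorem as_of_sq {g : X} (hg : Nm M g) (h : Commute (g * t * g⁻¹) t) (h2 : ∀ c, Commute (g * g) (f (u c 0))) :
    ∃ a b, As M g (f (u a b)) := by
  obtain ⟨μ, σ, h1, -, h3⟩ := E.aut hg h
  have : ∀ c : F, μ * σ (μ * σ c) = c := fun c => by
    obtain ⟨e, he⟩ := h1 c 0
    obtain ⟨e', he'⟩ := h1 (μ * σ c) e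
    have : f (u (μ * σ (μ * σ c)) e') = f (u c 0) := by
      rw [← he', ← he]
      exact (by group : _ = g * g * f (u c 0) * (g * g)⁻¹).trans (conj_eq_of_commute (h2 c))
    exact (u_inj.1 (E.inj this)).1
  exact h3 (key_sq this).1 (key_sq this).2

theorem inn {g : X} (hg : Nm M g) (h2 : Ce M (g * g)) (h : Commute (g * t * g⁻¹) t) : Bd.Inn M t g := by
  obtain ⟨a, b, h3⟩ := E.as_of_sq hg h fun c => h2 _ (E.mem _)
  refine ⟨_, E.mZ.2 (mem_Z_of_sq (u_mem_U a b) ?_), h3⟩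
  by_contra h4
  refine w_not_mem_B (U_le_B (mem_U_of_commute (mul_mem (u_mem_U a b) (u_mem_U a b)) h4 (E.cm.1 ?_)))
  refine (commute_of_conj_eq ?_).symm
  calc _ = f (u a b) * (f (u a b) * f w * (f (u a b))⁻¹) * (f (u a b))⁻¹ := by rw [map_mul]; group
    _ = g * g * f w * (g * g)⁻¹ := by rw [← h3 _ (E.mem _), ← h3 _ (hg _ (E.mem _))]; group
    _ = _ := conj_eq_of_commute (h2 _ (E.mem _))

theorem zact {g : X} (hg : Nm M g) (h : Commute g t) : ∃ σ : F ≃+* F, ∀ d, g * f (u 0 d) * g⁻¹ = f (u 0 (σ d)) := by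
  obtain ⟨μ, σ, -, h2, -⟩ := E.aut hg (by rw [conj_eq_of_commute h])
  have h3 := h2 1
  rw [E.ht, conj_eq_of_commute h, map_one, mul_one] at h3
  have h4 := (u_inj.1 (E.inj (E.ht.trans h3))).2
  exact ⟨σ, fun d => by rw [h2, ← h4, one_mul]⟩

theorem sqinj {s r : X} (hs : s ∈ SS M t) (hr : r ∈ SS M t) (h : s * s = r * r) : s * r⁻¹ ∈ ZZ M t := by
  obtain ⟨a, b, rfl⟩ := E.exS hs
  obtain ⟨c, d, rfl⟩ := E.exS hr
  rw [← map_mul, ← map_mul, ← pow_two, ← pow_two, u_sq, u_sq] at h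
  obtain rfl := nm_inj.1 (u_inj.1 (E.inj h)).2
  rw [← map_inv, ← map_mul, E.mZ, u_inv, u_mul_u, add_self' (m := k)]
  exact u_mem_Z _

theorem a_ne {a b : F} (h : f (u a b) * f (u a b) ≠ 1) : a ≠ 0 := by
  rintro rfl
  exact h (by rw [← map_mul, sq_of_mem_Z (u_mem_Z b), map_one])

end Emb

theorem gen_model {K : Subgroup (G F k)} (hZ : ∀ b : F, u 0 b ∈ K) {j : G F k} (hj : j ∈ K) (h2 : j * j = 1)
    (hB : j ∉ B F) {a b : F} (ha : a ≠ 0) (hs : u a b ∈ K) : K = ⊤ := by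
  refine eq_top_of_U_le ?_ fun h => hB (h hj)
  rintro _ ⟨c, d, rfl⟩
  by_cases hc : c = 0
  · exact hc ▸ hZ d
  have nz : ∀ {x : F}, x ≠ 0 → x * θ x ≠ 0 := fun hx => mul_ne_zero hx (θ_ne_zero hx)
  obtain ⟨r, hr, -, e1⟩ := exists_conj_invol_mem (hZ _) hj (sq_of_mem_Z (u_mem_Z _)) h2 (tr_mul_ne_zero (nz ha) h2 hB)
  obtain ⟨r', hr', -, e2⟩ := exists_conj_invol_mem (hZ _) hj (sq_of_mem_Z (u_mem_Z _)) h2
    (tr_mul_ne_zero (nz hc) h2 hB)
  have e3 : r'⁻¹ * r * u 0 (a * θ a) * (r'⁻¹ * r)⁻¹ = u 0 (c * θ c) := by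
    calc _ = r'⁻¹ * (r * u 0 (a * θ a) * r⁻¹) * r' := by group
      _ = _ := by rw [e1, ← e2]; group
  have hB' := mem_B_of_conj_mem_U (u_mem_U 0 _) (fun h => nz ha (u_eq_one.1 h).2) (e3 ▸ u_mem_U 0 _)
  obtain ⟨c', d', e4⟩ := conj_mem_U (u_mem_U a b) hB'
  have hK := mul_mem (inv_mem hr') hr
  have h5 : u c' d' ∈ K := e4 ▸ mul_mem (mul_mem hK hs) (inv_mem hK)
  have h6 : c' = c := by
    rw [← u_sq a b, ← conj_pow, e4, u_sq] at e3
    exact nm_inj.1 (u_inj.1 e3).2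
  subst h6
  have := mul_mem h5 (hZ (d' + d))
  rwa [u_mul_u, add_zero, mul_zero, add_zero, ← add_assoc, add_self' (m := k), zero_add] at this

theorem loc_model [Finite X] (M : Subgroup X) (e : G F k ≃* M) : Loc M (2 ^ (2 * k + 1)) ((2 ^ (2 * k + 1)) ^ 2) := by
  have k1 := one_le_m F
  have q8 := two_pow_ge_eight F
  obtain ⟨q, hq⟩ : ∃ q, q = 2 ^ (2 * k + 1) := ⟨_, rfl⟩
  rw [← hq] at q8 ⊢
  have n1 : q ^ 2 ≠ q := by nlinarith
  have n3 : q ^ 2 ≠ q ^ 3 := fun h => absurd (Nat.pow_right_injective (by omega) h) (by norm_num)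
  refine
    { pow := ⟨_, by omega, hq⟩
      kind := Or.inr (Or.inl ⟨rfl, ?_⟩)
      memZ := fun ht => ?_
      memS := fun ht => ?_
      comm := fun ht hz hs => ?_
      cardZ := fun ht => ?_
      cardS := fun ht => ?_
      two := fun ht hg hc _ => ?_
      rex := fun ht hu hv h1 h2 => ?_
      runiq := fun ht hu h1 hs h2 => ?_
      nc := ?_
      cS := fun ht hg h => ?_
      lin := fun {t V} ht hV htV hne h => ?_
      tri := fun ht hg h2 h => ?_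
      pair := fun ht ha _ ha2 _ h _ _ hn _ => ?_
      inn := fun {t g} ht hg hc h => ?_
      four := fun {g} _ hg ht => ?_
      same := fun {t a b} ht ha _ h _ h2 _ hn _ => ?_
      su1 := fun _ h => absurd h n3
      su2 := fun {t a b} ht _ ha _ hc _ _ _ _ => ?_
      sq := fun ht _ hz => ?_
      sqinj := fun ht _ hs hr h => ?_
      cj := fun ht hs h1 hz => ?_
      c4 := fun ht hs h1 hg h => ?_
      gen := fun {t v s K} ht hv h1 hZ hZ' hs hsK h2 y hy => ?_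
      sig := fun _ h => absurd h n3
      cC1 := fun _ h => absurd h n1
      cC4 := fun _ h => by omega
      cC8 := fun _ h h' => by subst h; norm_num at h' }
  · rintro ⟨r, hr⟩
    have := congrArg (fun n => n.factorization 2) (hq.symm.trans hr)
    have r0 : r ≠ 0 := by rintro rfl; omega
    simp only [Nat.factorization_mul r0 r0, Nat.factorization_pow, Finsupp.smul_apply, Finsupp.add_apply,
      Nat.prime_two.factorization_self, smul_eq_mul] at this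
    omega
  · obtain ⟨f, E⟩ := exists_emb e ht
    rw [E.ZZ_eq, E.memZ']
  · obtain ⟨f, E⟩ := exists_emb e ht
    rw [E.SS_eq, E.memS']
  · obtain ⟨f, E⟩ := exists_emb e ht
    obtain ⟨c, rfl⟩ := E.exZ hz
    obtain ⟨a, b, rfl⟩ := E.exS hs
    exact E.cm.2 (u_comm_z a b c)
  · obtain ⟨f, E⟩ := exists_emb e ht
    rw [E.ZZ_eq, Subgroup.card_map_of_injective E.inj, card_Z, hq]
  · obtain ⟨f, E⟩ := exists_emb e ht
    rw [E.SS_eq, Subgroup.card_map_of_injective E.inj, card_U, hq]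
  · obtain ⟨f, E⟩ := exists_emb e ht
    obtain ⟨x, rfl⟩ := (E.rng _).1 hg
    exact E.mS.2 (E.cmt.1 hc)
  · obtain ⟨f, E⟩ := exists_emb e ht
    obtain ⟨x, rfl⟩ := (E.rng _).1 hu.1
    obtain ⟨y, rfl⟩ := (E.rng _).1 hv.1
    rw [← E.ht, E.cm] at h1 h2
    have x2 := E.sq hu.2.2
    have y2 := E.sq hv.2.2
    obtain ⟨a, b, h3⟩ := exists_pt x2 (not_mem_B x2 h1)
    obtain ⟨c, d, h4⟩ := exists_pt y2 (not_mem_B y2 h2)
    refine ⟨f (u c d * (u a b)⁻¹), E.mS.2 (mul_mem (u_mem_U _ _) (inv_mem (u_mem_U _ _))), ?_⟩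
    rw [← map_inv, ← map_mul, ← map_mul, E.cm]
    refine comm_of_fix ?_ y2 ?_ h4
    · calc _ = u c d * (u a b)⁻¹ * (x * x) * (u c d * (u a b)⁻¹)⁻¹ := by group
        _ = 1 := by rw [x2]; group
    · have h5 : (u c d * (u a b)⁻¹ : G F k) • (pt a b : Pt F k) = pt c d := by
        rw [mul_smul, ← u_smul_zero a b, inv_smul_smul, u_smul_zero]
      rw [← h5, mul_smul, inv_smul_smul, mul_smul, h3]
  · obtain ⟨f, E⟩ := exists_emb e ht
    obtain ⟨x, rfl⟩ := (E.rng _).1 hu.1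
    obtain ⟨c, d, rfl⟩ := E.exS hs
    rw [← E.ht, E.cm] at h1
    rw [← map_inv, ← map_mul, ← map_mul, E.cm] at h2
    have x2 := E.sq hu.2.2
    have x1 : x ≠ 1 := fun h => hu.2.1 (E.eq_one.2 h)
    obtain ⟨a, b, h3⟩ := exists_pt x2 (not_mem_B x2 h1)
    have h4 : (u c d * x * (u c d)⁻¹) • (pt a b : Pt F k) = pt a b :=
      fix_unique (tr_eq_zero_of_sq x2) x1 (by rw [← mul_smul, ← h2.eq, mul_smul, h3]) h3
    rw [mul_smul, mul_smul, ← eq_inv_smul_iff] at h4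
    exact E.eq_one.2 (inv_eq_one.1 (eq_one_of_mem_U_of_fix (inv_mem (u_mem_U c d)) (pt_ne_inf a b)
      (fix_unique (tr_eq_zero_of_sq x2) x1 h4 h3)))
  · have h : ∀ x : G F k, x ≠ 1 → x * x = 1 → (e x : X) ∈ I M := fun x h1 h2 =>
      ⟨(e x).2, fun h => h1 (e.injective (Subtype.ext (by simpa using h))), by
        rw [← Subgroup.coe_mul, ← map_mul, h2, map_one, Subgroup.coe_one]⟩
    refine ⟨_, h w w_ne_one w_mul_w, _, h _ z1_ne (sq_of_mem_Z (u_mem_Z 1)), fun hc => ?_⟩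
    exact w_not_mem_B (U_le_B (commute_z1.1 (e.injective (Subtype.ext (by simpa using hc.eq)))))
  · obtain ⟨f, E⟩ := exists_emb e ht
    obtain ⟨x, rfl⟩ := (E.rng _).1 hg
    obtain ⟨a, b, rfl⟩ := commute_z1.1 (E.cm.1 (h _ (E.mS.2 (u_mem_U 0 1))))
    obtain ⟨c, c0, c1⟩ := exists_ne_zero_one (F := F)
    have h1 := (E.cm.1 (h _ (E.mS.2 (u_mem_U (c * a) 0)))).eq
    rw [u_mul_u, u_mul_u, u_inj, θ_mul] at h1
    have h2 : (θ c - c) * (a * θ a) = 0 := by linear_combination -h1.2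
    have h3 := (mul_eq_zero.1 h2).resolve_left fun h => by
      rcases θ_eq_self_iff.1 (sub_eq_zero.1 h) with h | h
      exacts [c0 h, c1 h]
    obtain rfl : a = 0 := by simpa using h3
    exact E.mZ.2 (u_mem_Z b)
  · obtain ⟨f, E⟩ := exists_emb e ht
    have hc : Nat.card (zPart (V.comap f)) = Nat.card V := Nat.card_eq_of_bijective
      (fun b => ⟨f (u 0 b.1), b.2⟩) ⟨fun b c h => Subtype.ext (u_inj.1 (E.inj (Subtype.mk.inj h))).2, fun v => by
        obtain ⟨b, hb⟩ := E.exZ (hV v.2)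
        exact ⟨⟨b, show f (u 0 b) ∈ V from hb ▸ v.2⟩, Subtype.ext hb⟩⟩
    rw [← hc, hq]
    refine lin_field card_F _ (show f (u 0 1) ∈ V from E.ht ▸ htV) (fun h => hne (le_antisymm hV fun z hz => ?_))
      fun z hz z' hz' => ?_
    · obtain ⟨b, rfl⟩ := E.exZ hz
      exact (h ▸ AddSubgroup.mem_top b : b ∈ zPart (V.comap f))
    · obtain ⟨g, hg, h1, h2⟩ := h _ (E.mZ.2 (u_mem_Z z)) hz _ (E.mZ.2 (u_mem_Z z')) hz'
      obtain ⟨σ, hσ⟩ := E.zact hg (h1 t htV)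
      refine ⟨σ, fun b hb => ?_, ?_⟩
      · exact (u_inj.1 (E.inj ((hσ b).symm.trans (conj_eq_of_commute (h1 _ hb))))).2
      · rw [hσ, ← map_mul, u_mul_u] at h2
        simpa [mem_zPart] using h2
  · obtain ⟨f, E⟩ := exists_emb e ht
    exact Or.inl (E.inn hg h2 h)
  · obtain ⟨f, E⟩ := exists_emb e ht
    exact absurd (E.inn ha ha2 h) hn
  · obtain ⟨f, E⟩ := exists_emb e ht
    obtain ⟨μ, σ, h1, -, h3⟩ := E.aut hg (by rw [conj_eq_of_commute (hc _ (E.ht ▸ E.mZ.2 (u_mem_Z 1)))])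
    have h4 : ∀ c : F, μ * σ c = c := fun c => by
      obtain ⟨d, hd⟩ := h1 c 0
      have := h _ (E.mS.2 (u_mem_U c 0))
      rw [hd, ← map_inv, ← map_mul, E.mZ, u_inv, u_mul_u] at this
      obtain ⟨b, hb⟩ := this
      linear_combination (u_inj.1 hb).1 - add_self' (m := k) c
    have h5 : μ = 1 := Units.ext (by simpa using h4 1)
    obtain ⟨a, b, h6⟩ := h3 h5 (RingEquiv.ext fun c => by simpa [h5] using h4 c)
    exact ⟨_, E.mS.2 (u_mem_U a b), h6⟩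
  · obtain ⟨f, E⟩ := exists_emb e ht
    obtain ⟨a, b, h⟩ := E.as_of_sq hg (by
      rw [conj_eq_of_commute ((Commute.refl g).mul_right (Commute.refl g))]) fun c => (E.cmt.2 (u_mem_U c 0)).symm
    exact ⟨_, E.mS.2 (u_mem_U a b), h⟩
  · obtain ⟨f, E⟩ := exists_emb e ht
    obtain ⟨σ, hσ⟩ := E.zact ha h
    have : σ = 1 := aut_eq_one fun c => by
      have : f (u 0 (σ (σ c))) = f (u 0 c) := by
        rw [← hσ, ← hσ]
        exact (by group : _ = a * a * f (u 0 c) * (a * a)⁻¹).trans (conj_eq_of_commute (h2 _ (E.mZ.2 (u_mem_Z c))))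
      exact (u_inj.1 (E.inj this)).2
    refine absurd (fun z hz => ?_) hn
    obtain ⟨c, rfl⟩ := E.exZ hz
    exact commute_of_conj_eq (by rw [hσ, this]; rfl)
  · obtain ⟨f, E⟩ := exists_emb e ht
    refine Or.inl fun s hs => E.sqinj (ha s hs) hs ?_
    obtain ⟨c, d, rfl⟩ := E.exS hs
    calc _ = a * f (u c d ^ 2) * a⁻¹ := by rw [map_pow, pow_two]; group
      _ = f (u c d ^ 2) := by rw [u_sq]; exact conj_eq_of_commute (hc _ (E.mZ.2 (u_mem_Z _)))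
      _ = _ := by rw [map_pow, pow_two]
  · obtain ⟨f, E⟩ := exists_emb e ht
    obtain ⟨b, rfl⟩ := E.exZ hz
    obtain ⟨a, rfl⟩ := nm_surjective b
    exact ⟨f (u a 0), E.mS.2 (u_mem_U _ _), by rw [← map_mul, ← pow_two, u_sq]⟩
  · obtain ⟨f, E⟩ := exists_emb e ht
    exact E.sqinj hs hr h
  · obtain ⟨f, E⟩ := exists_emb e ht
    obtain ⟨a, b, rfl⟩ := E.exS hs
    obtain ⟨c, rfl⟩ := E.exZ hz
    obtain ⟨s, rfl⟩ := exists_eq_u_nm (E.a_ne h1) c
    by_cases h : s ∈ RR F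
    · obtain ⟨r, rfl⟩ := mem_RR.1 h
      refine ⟨f (u (r * a) 0), E.mS.2 (u_mem_U _ _), Or.inl ?_⟩
      rw [← map_inv, ← map_mul, ← map_mul, ← map_mul, u_conj_u, u_mul_u, θ_mul]
      congr 2 <;> ring
    · obtain ⟨r, hr⟩ := mem_RR.1 (add_one_mem_RR_iff.2 h)
      refine ⟨f (u (r * a) 0), E.mS.2 (u_mem_U _ _), Or.inr ?_⟩
      rw [← map_inv, ← map_mul, ← map_mul, ← map_mul, ← map_inv, u_conj_u, u_mul_u, θ_mul, u_inv, add_zero]
      congr 2
      linear_combination a * θ a * hr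
  · obtain ⟨f, E⟩ := exists_emb e ht
    obtain ⟨a, b, rfl⟩ := E.exS hs
    obtain ⟨x, rfl⟩ := (E.rng _).1 hg
    exact E.mS.2 (mem_U_of_commute (u_mem_U a b) (fun h => E.a_ne h1 (u_eq_one.1 h).1) (E.cm.1 h))
  · obtain ⟨f, E⟩ := exists_emb e ht
    obtain ⟨a, b, rfl⟩ := E.exS hs
    have hvK : v ∈ K := hZ' (Subgroup.subset_closure ⟨hv.1, hv.2.2, Commute.refl v⟩)
    obtain ⟨x, rfl⟩ := (E.rng _).1 hv.1
    obtain ⟨y, rfl⟩ := (E.rng _).1 hy.1
    rw [← E.ht, E.cm] at h1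
    have := gen_model (K := K.comap f) (fun b => hZ (E.mZ.2 (u_mem_Z b))) hvK (E.sq hv.2.2)
      (not_mem_B (E.sq hv.2.2) h1) (E.a_ne h2) hsK
    exact (this ▸ Subgroup.mem_top y : y ∈ K.comap f)

theorem loc_Sz {G : Type*} [Group G] [Finite G] (M : Subgroup G) {F : Type} [Field F] [Fintype F] {m : ℕ}
    (hF : Fintype.card F = 2 ^ m) (hm : 2 ≤ m) (ho : Odd m) (e : M ≃* Cfsg.Lie.Sz F (2 ^ ((m + 1) / 2))) :
    Bd.Loc M (2 ^ m) ((2 ^ m) ^ 2) := by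
  obtain ⟨k, rfl⟩ := ho
  have : SuzF F k := SuzF.of_card (by omega) hF
  rw [show (2 * k + 1 + 1) / 2 = k + 1 by omega] at e
  exact loc_model M ((lieEquiv F).trans e.symm)

end Cfsg.Agent.BdS
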